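import Mathlib
import Cfsg.Agent.Lib.Fgs.ClassSize
import Cfsg.Agent.Lib.Transfer.NormalComplement

/-! Counting elements of a coset that centralise a Sylow subgroup of a subgroup. -/

set_option autoImplicit false
set_option linter.unusedSectionVars false
set_option linter.style.haveILetI false

namespace CfsgLib.Cls2

open Cfsg Subgroup CfsgLib.Fgs

variable {G : Type*} [Group G] [Finite G]

/-- the automiser order of a Sylow subgroup -/
noncomputable def aut {p : ℕ} (P : Sylow p G) : ℕ :=
  (centralizer ((P : Subgroup G) : Set G)).relIndex (normalizer ((P : Subgroup G) : Set G))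

theorem cent_le_norm (P : Subgroup G) :
    centralizer (P : Set G) ≤ normalizer (P : Set G) := centralizer_le_normalizer _

theorem aut_mul_card {p : ℕ} (P : Sylow p G) :
    aut P * Nat.card (centralizer ((P : Subgroup G) : Set G)) =
      Nat.card (normalizer ((P : Subgroup G) : Set G)) := by
  have := Subgroup.index_mul_card ((centralizer ((P : Subgroup G) : Set G)).subgroupOf
    (normalizer ((P : Subgroup G) : Set G)))
  rwa [Nat.card_congr (subgroupOfEquivOfLe (cent_le_norm (P : Subgroup G))).toEquiv] at this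

theorem aut_pos {p : ℕ} (P : Sylow p G) : 0 < aut P := by
  have := aut_mul_card P
  rcases Nat.eq_zero_or_pos (aut P) with h | h
  · rw [h, zero_mul] at this
    exact absurd this.symm Nat.card_pos.ne'
  · exact h

theorem card_cent_smul {p : ℕ} (P : Sylow p G) (g : G) :
    Nat.card (centralizer (((g • P : Sylow p G) : Subgroup G) : Set G)) =
      Nat.card (centralizer ((P : Subgroup G) : Set G)) := by
  refine Nat.card_congr ⟨fun x => ⟨g⁻¹ * x * g, ?_⟩, fun x => ⟨g * x * g⁻¹, ?_⟩, ?_, ?_⟩
  · rw [mem_centralizer_iff]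
    intro y hy
    have : g * y * g⁻¹ ∈ ((g • P : Sylow p G) : Subgroup G) := by
      rw [Sylow.coe_subgroup_smul]
      exact Subgroup.smul_mem_pointwise_smul y (MulAut.conj g) _ hy
    have h2 := mem_centralizer_iff.1 x.2 _ this
    calc y * (g⁻¹ * x * g) = g⁻¹ * (g * y * g⁻¹ * x) * g := by group
      _ = g⁻¹ * (x * (g * y * g⁻¹)) * g := by rw [h2]
      _ = g⁻¹ * x * g * y := by group
  · rw [mem_centralizer_iff]
    intro y hy
    have hy' : y ∈ ((g • P : Sylow p G) : Subgroup G) := hy
    rw [Sylow.coe_subgroup_smul, Subgroup.mem_pointwise_smul_iff_inv_smul_mem] at hy'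
    have h2 := mem_centralizer_iff.1 x.2 _ hy'
    simp only [MulAut.smul_def, ← map_inv, MulAut.conj_apply, inv_inv] at h2
    calc y * (g * x * g⁻¹) = g * (g⁻¹ * y * g * x) * g⁻¹ := by group
      _ = g * (x * (g⁻¹ * y * g)) * g⁻¹ := by rw [h2]
      _ = g * x * g⁻¹ * y := by group
  · intro x; ext; simp [mul_assoc]
  · intro x; ext; simp [mul_assoc]

/-- elements `n` of `N` such that `g * n` centralises a Sylow `p`-subgroup of `N` -/
def F (p : ℕ) (N : Subgroup G) (g : G) : Set N :=
  {n | ¬ p ∣ (centralizer ({g * n} : Set G)).relIndex N}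

theorem ncard_F_mul_le {p : ℕ} [Fact p.Prime] (N : Subgroup G) (g : G) (Q : Sylow p N) :
    (F p N g).ncard * aut Q ≤ Nat.card N := by
  classical
  have := Fintype.ofFinite N
  have := Fintype.ofFinite (Sylow p N)
  set c := Nat.card (centralizer ((Q : Subgroup N) : Set N)) with hc
  let S : Sylow p N → Set N := fun R => {n | ∀ y ∈ (R : Subgroup N), Commute (g * n) y}
  have hS : ∀ R, (S R).ncard ≤ c := by
    intro R
    rcases (S R).eq_empty_or_nonempty with h | ⟨n0, hn0⟩
    · simp [h]
    obtain ⟨x, rfl⟩ := MulAction.exists_smul_eq N Q R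
    rw [hc, ← card_cent_smul Q x, ← Nat.card_coe_set_eq]
    refine Nat.card_le_card_of_injective (fun n => ⟨n0⁻¹ * n.1, ?_⟩) ?_
    · rw [mem_centralizer_iff]
      intro y hy
      have h1 := hn0 y hy
      have h2 := n.2 y hy
      have h3 := h1.inv_left.mul_left h2
      have h4 : (g * (n0 : G))⁻¹ * (g * n.1) = ((n0⁻¹ * n.1 : N) : G) := by
        push_cast; group
      rw [h4] at h3
      exact Subtype.ext h3.symm.eq
    · intro a b hab
      exact Subtype.ext (by simpa using hab)
  have hsub : F p N g ⊆ ⋃ R, S R := by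
    intro n hn
    obtain ⟨R, hR⟩ := exists_sylow_le_of_not_dvd_index (p := p)
      (H := (centralizer ({g * n} : Set G)).subgroupOf N) hn
    exact Set.mem_iUnion.2 ⟨R, fun y hy => mem_cent_iff.1 (mem_subgroupOf.1 (hR hy))⟩
  have h1 : (F p N g).ncard ≤ Nat.card (Sylow p N) * c := by
    refine (Set.ncard_le_ncard hsub (Set.toFinite _)).trans ?_
    refine (Set.ncard_iUnion_le_of_fintype S).trans ?_
    refine (Finset.sum_le_sum fun R _ => hS R).trans ?_
    simp [Nat.card_eq_fintype_card]
  have h2 := aut_mul_card Q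
  have h3 := Subgroup.index_mul_card (normalizer ((Q : Subgroup N) : Set N))
  have h4 : Nat.card (Sylow p N) = (normalizer ((Q : Subgroup N) : Set N)).index :=
    Sylow.card_eq_index_normalizer Q
  rw [← h4] at h3
  calc (F p N g).ncard * aut Q ≤ Nat.card (Sylow p N) * c * aut Q := Nat.mul_le_mul_right _ h1
    _ = Nat.card (Sylow p N) * (aut Q * c) := by ring
    _ = Nat.card N := by rw [h2, h3]

/-- elements centralising a Sylow `p`-subgroup -/
def X (p : ℕ) (G : Type*) [Group G] : Set G := {x | ¬ p ∣ (centralizer ({x} : Set G)).index}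

theorem ncard_X_mul_le {p : ℕ} [Fact p.Prime] (P : Sylow p G) :
    (X p G).ncard * aut P ≤ Nat.card G := by
  classical
  have := Fintype.ofFinite G
  have := Fintype.ofFinite (Sylow p G)
  set c := Nat.card (centralizer ((P : Subgroup G) : Set G)) with hc
  let S : Sylow p G → Set G := fun R => centralizer ((R : Subgroup G) : Set G)
  have hS : ∀ R, (S R).ncard ≤ c := by
    intro R
    obtain ⟨x, rfl⟩ := MulAction.exists_smul_eq G P R
    rw [hc, ← card_cent_smul P x, ← Nat.card_coe_set_eq]
    rfl
  have hsub : X p G ⊆ ⋃ R, S R := by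
    intro n hn
    obtain ⟨R, hR⟩ := exists_sylow_le_of_not_dvd_index (p := p) hn
    refine Set.mem_iUnion.2 ⟨R, ?_⟩
    exact mem_centralizer_iff.2 fun y hy => (mem_cent_iff.1 (hR hy)).symm.eq
  have h1 : (X p G).ncard ≤ Nat.card (Sylow p G) * c := by
    refine (Set.ncard_le_ncard hsub (Set.toFinite _)).trans ?_
    refine (Set.ncard_iUnion_le_of_fintype S).trans ?_
    refine (Finset.sum_le_sum fun R _ => hS R).trans ?_
    simp [Nat.card_eq_fintype_card]
  have h2 := aut_mul_card P
  have h3 := Subgroup.index_mul_card (normalizer ((P : Subgroup G) : Set G))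
  have h4 : Nat.card (Sylow p G) = (normalizer ((P : Subgroup G) : Set G)).index :=
    Sylow.card_eq_index_normalizer P
  rw [← h4] at h3
  calc (X p G).ncard * aut P ≤ Nat.card (Sylow p G) * c * aut P := Nat.mul_le_mul_right _ h1
    _ = Nat.card (Sylow p G) * (aut P * c) := by ring
    _ = Nat.card G := by rw [h2, h3]

theorem one_mem_X {p : ℕ} (hp : p.Prime) : (1 : G) ∈ X p G := by
  have : centralizer ({(1 : G)} : Set G) = ⊤ := cent_eq_top_iff.2 (one_mem _)
  simp only [X, Set.mem_ofPred_eq, this, index_top, Nat.dvd_one]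
  exact hp.one_lt.ne'

theorem mem_X_of_le {p : ℕ} {x y : G} (h : centralizer ({x} : Set G) ≤ centralizer {y})
    (hx : x ∈ X p G) : y ∈ X p G :=
  fun hy => hx (hy.trans (index_dvd_of_le h))

theorem mem_X_of_zpowers {p : ℕ} {x y : G} (h : y ∈ zpowers x) (hx : x ∈ X p G) : y ∈ X p G :=
  mem_X_of_le (cent_le_cent_of_mem_zpowers h) hx

theorem mem_X_of_cent {p : ℕ} [Fact p.Prime] (P : Sylow p G) {x : G}
    (hx : x ∈ centralizer ((P : Subgroup G) : Set G)) : x ∈ X p G :=
  not_dvd_index_of_sylow_le P fun y hy =>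
    mem_cent_iff.2 (mem_centralizer_iff.1 hx y hy).symm

theorem exists_of_mem_X {p : ℕ} [Fact p.Prime] {x : G} (hx : x ∈ X p G) :
    ∃ P : Sylow p G, x ∈ centralizer ((P : Subgroup G) : Set G) := by
  obtain ⟨R, hR⟩ := exists_sylow_le_of_not_dvd_index (p := p) hx
  exact ⟨R, mem_centralizer_iff.2 fun y hy => (mem_cent_iff.1 (hR hy)).symm.eq⟩

/-- automiser 1: normal complement -/
theorem norm_le_cent_of_aut {p : ℕ} (P : Sylow p G) (h : aut P = 1) :
    normalizer ((P : Subgroup G) : Set G) ≤ centralizer ((P : Subgroup G) : Set G) :=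
  relIndex_eq_one.1 h

/-- the index of the centre of `P` in `P` divides the automiser -/
theorem index_center_dvd_aut {p : ℕ} (P : Sylow p G) :
    (center (P : Subgroup G)).index ∣ aut P := by
  have h1 : (center (P : Subgroup G)).index =
      (centralizer ((P : Subgroup G) : Set G)).relIndex P := by
    unfold relIndex
    congr 1
    ext x
    simp only [mem_center_iff, mem_subgroupOf, mem_centralizer_iff]
    exact ⟨fun h y hy => congrArg Subtype.val (h ⟨y, hy⟩), fun h y => Subtype.ext (h y y.2)⟩
  rw [h1, aut]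
  set N := normalizer ((P : Subgroup G) : Set G)
  set C := centralizer ((P : Subgroup G) : Set G)
  have hPN : (P : Subgroup G) ≤ N := le_normalizer
  have : ((P : Subgroup G).subgroupOf N).Normal := normal_in_normalizer
  have h2 := relIndex_dvd_index_of_normal_right (C.subgroupOf N) ((P : Subgroup G).subgroupOf N)
  rwa [relIndex_subgroupOf hPN] at h2

/-- a non-commutative `p`-group has `p ^ 2` dividing the index of its centre -/
theorem sq_dvd_index_center {p : ℕ} [hp : Fact p.Prime] {P : Type*} [Group P] [Finite P]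
    (hP : IsPGroup p P) (h : ¬ IsMulCommutative P) : p ^ 2 ∣ (center P).index := by
  obtain ⟨k, hk⟩ := (hP.to_quotient (center P)).exists_card_eq
  have hk' : (center P).index = p ^ k := hk
  rw [hk']
  refine pow_dvd_pow p ?_
  by_contra hlt
  have hc : IsCyclic (P ⧸ center P) := by
    interval_cases hk2 : k
    · have : Nat.card (P ⧸ center P) = 1 := by simpa using hk
      have := (Nat.card_eq_one_iff_unique.1 this).1
      infer_instance
    · exact isCyclic_of_prime_card (p := p) (by simpa using hk)
  exact h (MonoidHom.isMulCommutative_of_isCyclic_of_ker_le_center (QuotientGroup.mk' (center P))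
    (by simp))

theorem comm_of_aut_lt {p : ℕ} [hp : Fact p.Prime] (P : Sylow p G) (h : aut P < p ^ 2) :
    IsMulCommutative (P : Subgroup G) := by
  by_contra hc
  exact absurd (Nat.le_of_dvd (aut_pos P)
    ((sq_dvd_index_center P.isPGroup' hc).trans (index_center_dvd_aut P))) (by omega)

theorem le_cent_of_comm {P : Subgroup G} (h : IsMulCommutative P) :
    P ≤ centralizer (P : Set G) := fun x hx => mem_centralizer_iff.2 fun y hy =>
  congrArg Subtype.val (h.is_comm.comm (⟨y, hy⟩ : P) ⟨x, hx⟩)

theorem not_dvd_aut_of_comm {p : ℕ} [hp : Fact p.Prime] (P : Sylow p G)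
    (h : IsMulCommutative (P : Subgroup G)) : ¬ p ∣ aut P := by
  intro hd
  have h1 : aut P ∣ (centralizer ((P : Subgroup G) : Set G)).index :=
    ⟨_, (relIndex_mul_index (cent_le_norm (P : Subgroup G))).symm⟩
  exact not_dvd_index_of_sylow_le P (le_cent_of_comm h) (hd.trans h1)

/-- an element of an abelian Sylow subgroup centralised by the normaliser has trivial transfer -/
theorem eq_one_of_norm_cent {p : ℕ} [hp : Fact p.Prime] (hG : commutator G = ⊤) (P : Sylow p G)
    (h : IsMulCommutative (P : Subgroup G)) {y : G} (hy : y ∈ (P : Subgroup G))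
    (hc : normalizer ((P : Subgroup G) : Set G) ≤ centralizer {y}) : y = 1 := by
  have hfin : (P : Subgroup G).FiniteIndex := inferInstance
  letI : CommGroup (P : Subgroup G) := { (inferInstance : Group (P : Subgroup G)) with
    mul_comm := h.is_comm.comm }
  have key : ∀ (k : ℕ) (g₀ : G), g₀⁻¹ * y ^ k * g₀ ∈ (P : Subgroup G) →
      g₀⁻¹ * y ^ k * g₀ = y ^ k := by
    intro k g hg
    have hyk : y ^ k ∈ (P : Subgroup G) := pow_mem hy k
    have hc1 : y ^ k ∈ centralizer ((P : Subgroup G) : Set G) := le_cent_of_comm h hyk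
    have hc2 : g⁻¹ * y ^ k * g ∈ centralizer ((P : Subgroup G) : Set G) := le_cent_of_comm h hg
    obtain ⟨n, hn, e⟩ := Sylow.conj_eq_normalizer_conj_of_mem_centralizer P (y ^ k) g hc1 hc2
    rw [e]
    have := (mem_cent_iff.1 (hc hn)).pow_left k
    rw [mul_assoc, this.eq]; group
  have h1 := MonoidHom.transfer_eq_pow (MonoidHom.id (P : Subgroup G)) y key
  have h2 : MonoidHom.transfer (MonoidHom.id (P : Subgroup G)) y = 1 := by
    have : y ∈ commutator G := hG ▸ mem_top y
    exact (Abelianization.commutator_subset_ker _ this)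
  rw [h2] at h1
  have h3 : y ^ (P : Subgroup G).index = 1 := congrArg Subtype.val h1.symm
  obtain ⟨k, hk⟩ := orderOf_eq_pow_of_mem_isPGroup P.isPGroup' hy
  have h4 := orderOf_dvd_of_pow_eq_one h3
  rw [hk] at h4
  rcases k with _ | k
  · simpa using hk
  · exact absurd ((dvd_pow_self p (Nat.succ_ne_zero k)).trans h4) P.not_dvd_index

end CfsgLib.Cls2
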