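import Mathlib
import Cfsg.Agent.Lib.Cls2.Count
import Cfsg.Agent.Lib.Char.Integral
import Cfsg.Agent.Lib.Block.Span
import Cfsg.Agent.S4709
import Cfsg.Agent.S4441

/-! Abelian Sylow subgroup with automiser of order 2: two degrees differing by one. -/

set_option autoImplicit false
set_option linter.unusedSectionVars false
set_option linter.style.haveILetI false

namespace CfsgLib.Cls2

open Cfsg Subgroup CfsgLib.Fgs CfsgLib.Char
open scoped commutatorElement

variable {G : Type*} [Group G] [Finite G]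

theorem commutator_eq_top [IsSimpleGroup G] (hG : ¬ IsMulCommutative G) : commutator G = ⊤ := by
  refine (IsSimpleGroup.eq_bot_or_eq_top_of_normal _ inferInstance).resolve_left fun h => hG ?_
  refine ⟨⟨fun a b => ?_⟩⟩
  have : ⁅a, b⁆ ∈ commutator G := commutator_mem_commutator (mem_top a) (mem_top b)
  rw [h, mem_bot, commutatorElement_eq_one_iff_mul_comm] at this
  exact this

theorem center_eq_bot' [IsSimpleGroup G] (hG : ¬ IsMulCommutative G) : center G = ⊥ := by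
  refine (IsSimpleGroup.eq_bot_or_eq_top_of_normal _ inferInstance).resolve_right fun h => hG ?_
  exact ⟨⟨fun a b => (mem_center_iff.1 (h ▸ mem_top b : b ∈ center G) a)⟩⟩

theorem between_of_prime {C K N : Subgroup G} {q : ℕ} (hq : q.Prime) (h : C.relIndex N = q)
    (h1 : C ≤ K) (h2 : K ≤ N) : K = C ∨ K = N := by
  have := relIndex_mul_relIndex C K N h1 h2
  rw [h] at this
  rcases (Nat.dvd_prime hq).1 (Dvd.intro _ this) with h3 | h3
  · exact Or.inl (le_antisymm (relIndex_eq_one.1 h3) h1)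
  · rw [h3] at this
    have h4 : K.relIndex N = 1 :=
      Nat.eq_of_mul_eq_mul_left hq.pos (this.trans (mul_one q).symm)
    exact Or.inr (le_antisymm h2 (relIndex_eq_one.1 h4))

/-- a character constant on the non-identity elements of a subgroup -/
theorem card_dvd_of_const {χ : G → ℂ} (hχ : IsCharacter G χ) (P : Subgroup G) {n : ℕ} {a : ℤ}
    (h1 : χ 1 = n) (ha : ∀ y ∈ P, y ≠ 1 → χ y = a) : (Nat.card P : ℤ) ∣ (n : ℤ) - a := by
  classical
  have := Fintype.ofFinite P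
  obtain ⟨k, hk⟩ := exists_classInner_eq_nat (G := P) (isCharacter_restrict P hχ)
    (isCharacter_of_isIrr isIrr_one)
  have h2 := card_mul_classInner (G := P) (fun h : P => χ h) (fun _ => 1)
  rw [hk] at h2
  have h3 : ∑ g : P, χ g * (starRingEnd ℂ) 1 = n + (Nat.card P - 1) * (a : ℂ) := by
    rw [← Finset.add_sum_erase _ _ (Finset.mem_univ (1 : P))]
    simp only [map_one, mul_one, OneMemClass.coe_one, h1]
    congr 1
    rw [Finset.sum_congr rfl fun (x : P) hx => ha x x.2 (by simpa using hx), Finset.sum_const,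
      Finset.card_erase_of_mem (Finset.mem_univ _), Finset.card_univ, nsmul_eq_mul,
      Nat.cast_sub Fintype.card_pos, Nat.card_eq_fintype_card]
    simp
  rw [h3] at h2
  refine ⟨k - a, ?_⟩
  have : ((n : ℤ) - a : ℂ) = (Nat.card P : ℤ) * (k - a : ℤ) := by
    push_cast
    linear_combination -h2
  exact_mod_cast this

theorem deg_ne_one [IsSimpleGroup G] (hG : ¬ IsMulCommutative G) {χ : G → ℂ}
    (hχ : IsIrrCharacter G χ) (h1 : χ ≠ fun _ => 1) : χ 1 ≠ 1 := by
  intro h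
  have h2 := (irr_one_eq_one_iff hχ).1 h
  rw [commutator_eq_top hG, charKer_eq_bot_of_simple hχ h1] at h2
  exact hG ⟨⟨fun a b => by rw [mem_bot.1 (h2 (mem_top a)), mem_bot.1 (h2 (mem_top b))]⟩⟩

/-- the conclusion: two non-principal irreducible degrees, prime to `r`, differing by one -/
def TwoDeg (r : ℕ) (G : Type*) [Group G] : Prop :=
  ∃ (χ ψ : G → ℂ) (m n : ℕ), IsIrrCharacter G χ ∧ IsIrrCharacter G ψ ∧ χ ≠ (fun _ => 1) ∧
    ψ ≠ (fun _ => 1) ∧ χ 1 = m ∧ ψ 1 = n ∧ m = n + 1 ∧ ¬ r ∣ m ∧ ¬ r ∣ n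

theorem twoDeg_of {r : ℕ} {χ ψ : G → ℂ} (hχ : IsIrrCharacter G χ) (hψ : IsIrrCharacter G ψ)
    (h1 : χ ≠ fun _ => 1) (h2 : ψ ≠ fun _ => 1) {m n : ℕ} (hm : χ 1 = m) (hn : ψ 1 = n)
    (hrm : ¬ r ∣ m) (hrn : ¬ r ∣ n) {a b c : ℤ} (ha : a = 1 ∨ a = -1) (hb : b = 1 ∨ b = -1)
    (hc : c = 1 ∨ c = -1) (e : a * m + b * n + c = 0) : TwoDeg r G := by
  have hm0 : m ≠ 0 := fun h => hrm (h ▸ dvd_zero r)
  have hn0 : n ≠ 0 := fun h => hrn (h ▸ dvd_zero r)
  have : m = n + 1 ∨ n = m + 1 := by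
    rcases ha with rfl | rfl <;> rcases hb with rfl | rfl <;> rcases hc with rfl | rfl <;> omega
  rcases this with h | h
  · exact ⟨χ, ψ, m, n, hχ, hψ, h1, h2, hm, hn, h, hrm, hrn⟩
  · exact ⟨ψ, χ, n, m, hψ, hχ, h2, h1, hn, hm, h, hrn, hrm⟩

theorem twoDeg_three (r : ℕ) [hr : Fact r.Prime] (hr2 : r ≠ 2) (R : Sylow r G)
    (hR : Nat.card R = r) (he : aut R = 2) : TwoDeg r G := by
  classical
  have := Fintype.ofFinite G
  obtain ⟨M, hM⟩ := Block.exists_isPModular' hr.out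
  obtain ⟨X, Y, hB, hd, hX, hY, εX, ε, h1, hε, h2, -, h3⟩ :=
    Cfsg.Agent.S4441.result r M hM hr2 R hR 2 he
  have hr3 : 3 ≤ r := by have := hr.out.two_le; omega
  have hone : irrOne G ∈ X ∪ Y := hB ▸ Block.irrOne_mem_principalBlock hM
  obtain ⟨χ, ψ, hne, hXe⟩ := Set.ncard_eq_two.1 (show X.ncard = 2 from hX)
  have hsum : ∀ θ ∈ Y, (ε : ℂ) * θ.1 1 = εX χ * χ.1 1 + εX ψ * ψ.1 1 := by
    intro θ hθ
    rw [h3 θ hθ 1 (by rw [orderOf_one]; exact hr.out.not_dvd_one), hXe, finsum_mem_pair hne]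
  have hdeg : ∀ φ : IrrCharacter G, φ.1 1 = (charDegree φ.1 : ℕ) := fun φ =>
    (Block.charDegree_eq (isCharacter_of_isIrr φ.2)).symm
  have hpm : ∀ (d : ℕ) (e : ℤ), (e = 1 ∨ e = -1 ∨ e = 2 ∨ e = -2) → (d : ℤ) ≡ e [ZMOD r] →
      ¬ r ∣ d := by
    intro d e he hde hd
    have h5 : (r : ℤ) ∣ e := by
      have := (Int.ModEq.dvd hde)
      have h6 : (r : ℤ) ∣ d := by exact_mod_cast hd
      simpa using this.add h6
    have h7 : r ∣ e.natAbs := Int.natCast_dvd.1 h5
    have h8 := Nat.le_of_dvd (by rcases he with rfl | rfl | rfl | rfl <;> simp) h7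
    rcases he with rfl | rfl | rfl | rfl <;> simp at h8 <;> omega
  have hXd : ∀ φ ∈ X, ¬ r ∣ charDegree φ.1 := fun φ hφ =>
    hpm _ (εX φ) (by rcases (h1 φ hφ).1 with h | h <;> simp [h]) (h1 φ hφ).2.1
  have hYd : ∀ φ ∈ Y, ¬ r ∣ charDegree φ.1 := fun φ hφ =>
    hpm _ (ε * (2 : ℕ)) (by rcases hε with h | h <;> simp [h]) (h2 φ hφ)
  have hχX : χ ∈ X := by simp [hXe]
  have hψX : ψ ∈ X := by simp [hXe]
  have hne1 : ∀ φ : IrrCharacter G, φ ≠ irrOne G → φ.1 ≠ fun _ => 1 :=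
    fun φ h h' => h (Subtype.ext h')
  have neg : ∀ e : ℤ, (e = 1 ∨ e = -1) → (-e = 1 ∨ -e = -1) := by omega
  rcases hone with h | h
  · have hYne : Y.Nonempty := by
      rw [← Set.ncard_pos]
      change 0 < Nat.card Y
      rw [hY]; omega
    obtain ⟨θ, hθ⟩ := hYne
    have hθ1 : θ ≠ irrOne G := fun e => Set.disjoint_left.1 hd h (e ▸ hθ)
    have e := hsum θ hθ
    rw [hXe] at h
    rcases h with h | h
    · have hψ1 : ψ ≠ irrOne G := fun e => hne (h.symm.trans e.symm)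
      refine twoDeg_of θ.2 ψ.2 (hne1 _ hθ1) (hne1 _ hψ1) (hdeg θ) (hdeg ψ) (hYd θ hθ) (hXd ψ hψX)
        (neg _ hε) (h1 ψ hψX).1 (h1 χ hχX).1 ?_
      have e1 : χ.1 1 = 1 := by rw [← h]; rfl
      rw [e1, hdeg θ, hdeg ψ] at e
      have : ((-ε * (charDegree θ.1 : ℕ) + εX ψ * (charDegree ψ.1 : ℕ) + εX χ : ℤ) : ℂ) = 0 := by
        push_cast; linear_combination -e
      exact_mod_cast this
    · have h' : irrOne G = ψ := h
      have hχ1 : χ ≠ irrOne G := fun e => hne (e.trans h')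
      refine twoDeg_of θ.2 χ.2 (hne1 _ hθ1) (hne1 _ hχ1) (hdeg θ) (hdeg χ) (hYd θ hθ) (hXd χ hχX)
        (neg _ hε) (h1 χ hχX).1 (h1 ψ hψX).1 ?_
      have e1 : ψ.1 1 = 1 := by rw [← h']; rfl
      rw [e1, hdeg θ, hdeg χ] at e
      have : ((-ε * (charDegree θ.1 : ℕ) + εX χ * (charDegree χ.1 : ℕ) + εX ψ : ℤ) : ℂ) = 0 := by
        push_cast; linear_combination -e
      exact_mod_cast this
  · have e := hsum _ h
    have hχ1 : χ ≠ irrOne G := fun e => Set.disjoint_left.1 hd hχX (e ▸ h)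
    have hψ1 : ψ ≠ irrOne G := fun e => Set.disjoint_left.1 hd hψX (e ▸ h)
    refine twoDeg_of χ.2 ψ.2 (hne1 _ hχ1) (hne1 _ hψ1) (hdeg χ) (hdeg ψ) (hXd χ hχX) (hXd ψ hψX)
        (h1 χ hχX).1 (h1 ψ hψX).1 (neg _ hε) ?_
    have e1 : (irrOne G).1 1 = 1 := rfl
    rw [e1, hdeg χ, hdeg ψ] at e
    have : ((εX χ * (charDegree χ.1 : ℕ) + εX ψ * (charDegree ψ.1 : ℕ) + -ε : ℤ) : ℂ) = 0 := by
      push_cast; linear_combination -e
    exact_mod_cast this

theorem twoDeg [IsSimpleGroup G] (hG : ¬ IsMulCommutative G) (r : ℕ) [hr : Fact r.Prime]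
    (hr2 : r ≠ 2) (R : Sylow r G) (hR1 : Nat.card R ≠ 1)
    (hab : IsMulCommutative (R : Subgroup G)) (he : aut R = 2) : TwoDeg r G := by
  classical
  have hr3 : 3 ≤ r := by have := hr.out.two_le; omega
  obtain ⟨k, hk⟩ := R.isPGroup'.exists_card_eq
  have hk' : Nat.card R = r ^ k := hk
  by_cases h3 : Nat.card R = r
  · exact twoDeg_three r hr2 R h3 he
  have hk2 : 2 ≤ k := by
    rcases k with _ | _ | k
    · exact absurd (by simpa using hk') hR1
    · exact absurd (by simpa using hk') h3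
    · omega
  have h9 : 9 ≤ Nat.card R := by
    rw [hk']
    calc 9 = 3 ^ 2 := by norm_num
      _ ≤ r ^ 2 := Nat.pow_le_pow_left hr3 2
      _ ≤ r ^ k := Nat.pow_le_pow_right (by omega) hk2
  have hrR : r ∣ Nat.card R := hk' ▸ dvd_pow_self r (by omega)
  set C := centralizer ((R : Subgroup G) : Set G) with hC
  set N := normalizer ((R : Subgroup G) : Set G) with hN
  have hCN : C ≤ N := cent_le_norm _
  have hfrob : ∀ y : G, y ∈ (R : Subgroup G) → y ≠ 1 → centralizer ({y} : Set G) ⊓ N = C := by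
    intro y hy hy1
    refine (between_of_prime Nat.prime_two he (le_inf ?_ hCN) inf_le_right).resolve_right ?_
    · exact centralizer_le (Set.singleton_subset_iff.2 hy)
    · intro h
      exact hy1 (eq_one_of_norm_cent (commutator_eq_top hG) R hab hy (h ▸ inf_le_left))
  have hcyc : ∃ g : G, g ∈ N ∧ C ⊔ zpowers g = N := by
    have : ¬ N ≤ C := fun h => by
      have := relIndex_eq_one.2 h
      rw [show C.relIndex N = 2 from he] at this
      omega
    obtain ⟨g, hg, hgC⟩ := SetLike.not_le_iff_exists.1 this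
    refine ⟨g, hg, (between_of_prime Nat.prime_two he le_sup_left
      (sup_le hCN ((zpowers_le).2 hg))).resolve_left fun h => hgC ?_⟩
    exact h.le (mem_sup_right (mem_zpowers g))
  obtain ⟨M, hM⟩ := Block.exists_isPModular' hr.out
  obtain ⟨s, X, Y, hs, hB, hd, hX, hY, ⟨χ₁, hχ₁, e₁⟩, a, d, δ, ζ, hδ, ha, -, -, -, -, hsq, -,
    hrel⟩ := Cfsg.Agent.S4709.result r M hM R hab hR1 2 (by norm_num) (by omega) he hcyc hfrob
  have hdeg : ∀ φ : IrrCharacter G, φ.1 1 = (charDegree φ.1 : ℕ) := fun φ =>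
    (Block.charDegree_eq (isCharacter_of_isIrr φ.2)).symm
  have hval : ∀ φ ∈ X, ∀ y ∈ (R : Subgroup G), y ≠ 1 → φ.1 y = a φ := fun φ hφ y hy hy1 =>
    (ha φ hφ).2 y y ⟨1, mul_one y, Commute.one_right y,
      orderOf_eq_pow_of_mem_isPGroup R.isPGroup' hy,
      by rw [orderOf_one]; exact hr.out.not_dvd_one⟩ hy hy1
  have hnt : Nontrivial (R : Subgroup G) := Finite.one_lt_card_iff_nontrivial.1 (by
    omega)
  obtain ⟨y, hy1⟩ := exists_ne (1 : (R : Subgroup G))
  have ha1 : a χ₁ = 1 := by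
    have := hval χ₁ hχ₁ y y.2 (by simpa using hy1)
    rw [e₁] at this
    have h1 : ((a χ₁ : ℤ) : ℂ) = 1 := this.symm
    exact_mod_cast h1
  have hYne : Y.Nonempty := by
    rw [← Set.ncard_pos (by have := finite_irr (G := G); exact Set.toFinite _)]
    change 0 < Nat.card Y
    rw [hY]; omega
  obtain ⟨η, hη⟩ := hYne
  have hη1 : η.1 ≠ fun _ => 1 := fun e =>
    Set.disjoint_left.1 hd hχ₁ ((Subtype.ext (e.trans e₁.symm) : η = χ₁) ▸ hη)
  have e := hrel η hη 1 (by rw [orderOf_one]; exact hr.out.not_dvd_one)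
  set t : ℕ := (Nat.card R - 1) / 2 with ht
  have ht4 : 4 ≤ t := by omega
  have ht' : ((Nat.card R : ℤ) - 1) / ((2 : ℕ) : ℤ) = t := by rw [ht]; omega
  rw [ht'] at hsq
  have ht5 : (4 : ℤ) ≤ t := by exact_mod_cast ht4
  simp only [Nat.cast_ofNat] at hsq
  have hfin : X.Finite := by have := finite_irr (G := G); exact Set.toFinite _
  have hXc : X.ncard ≤ 2 := by
    have : X.ncard = s := hX
    omega
  have hcase : X = {χ₁} ∨ ∃ ψ, ψ ≠ χ₁ ∧ X = {χ₁, ψ} := by
    by_cases h : ∃ ψ ∈ X, ψ ≠ χ₁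
    · obtain ⟨ψ, hψ, hne⟩ := h
      refine Or.inr ⟨ψ, hne, (Set.eq_of_subset_of_ncard_le ?_ ?_ hfin).symm⟩
      · rintro x (rfl | rfl) <;> assumption
      · rw [Set.ncard_pair hne.symm]; exact hXc
    · push Not at h
      exact Or.inl (Set.eq_singleton_iff_unique_mem.2 ⟨hχ₁, h⟩)
  have e1 : χ₁.1 1 = 1 := by rw [e₁]
  rcases hcase with hXe | ⟨ψ, hne, hXe⟩
  · exfalso
    rw [hXe, finsum_mem_singleton, ha1] at hsq
    have hd0 : d = 0 := by
      by_contra h
      have : 1 ≤ d ^ 2 := by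
        have := sq_pos_of_ne_zero h; omega
      nlinarith [sq_nonneg (d - δ)]
    subst hd0
    rcases hδ with rfl | rfl <;> simp at hsq
  · have hψX : ψ ∈ X := by simp [hXe]
    rw [hXe, finsum_mem_pair hne.symm, ha1] at hsq e
    have hd0 : d = 0 := by
      by_contra h
      have : 1 ≤ d ^ 2 := by
        have := sq_pos_of_ne_zero h; omega
      nlinarith [sq_nonneg (d - δ), sq_nonneg (a ψ)]
    subst hd0
    have haψ : a ψ = 1 ∨ a ψ = -1 := by
      have : a ψ ^ 2 = 1 := by rcases hδ with rfl | rfl <;> linarith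
      exact sq_eq_one_iff.1 this
    have hψ1 : ψ.1 ≠ fun _ => 1 := fun e => hne (Subtype.ext (e.trans e₁.symm))
    have hdv := card_dvd_of_const (isCharacter_of_isIrr ψ.2) (R : Subgroup G) (hdeg ψ)
      (hval ψ hψX)
    have hdv' : (r : ℤ) ∣ (charDegree ψ.1 : ℤ) - a ψ :=
      (Int.natCast_dvd_natCast.2 hrR).trans hdv
    rw [e1, hdeg η, hdeg ψ] at e
    have e' : -δ * (charDegree η.1 : ℕ) + a ψ * (charDegree ψ.1 : ℕ) + 1 = 0 := by
      have : ((-δ * (charDegree η.1 : ℕ) + a ψ * (charDegree ψ.1 : ℕ) + 1 : ℤ) : ℂ) = 0 := by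
        push_cast at e ⊢; linear_combination e
      exact_mod_cast this
    refine twoDeg_of η.2 ψ.2 hη1 hψ1 (hdeg η) (hdeg ψ) ?_ ?_ (by omega) haψ (Or.inl rfl) e'
    · intro h
      have h' : (r : ℤ) ∣ (charDegree η.1 : ℕ) := by exact_mod_cast h
      have h2 : (r : ℤ) ∣ 2 := by
        have h4 : (2 : ℤ) = δ * (charDegree η.1 : ℕ) - a ψ * ((charDegree ψ.1 : ℕ) - a ψ) := by
          rcases haψ with h | h <;> rw [h] at e' ⊢ <;> linarith
        rw [h4]
        exact (h'.mul_left _).sub (hdv'.mul_left _)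
      have := Int.le_of_dvd (by norm_num) h2
      omega
    · intro h
      have h' : (r : ℤ) ∣ (charDegree ψ.1 : ℕ) := by exact_mod_cast h
      have h2 : (r : ℤ) ∣ a ψ := by simpa using h'.sub hdv'
      have h4 : (r : ℤ) ∣ 1 := by rcases haψ with h | h <;> simpa [h] using h2
      have := Int.le_of_dvd (by norm_num) h4
      omega

/-- a non-principal irreducible character of `p`-power degree, vanishing on the centraliser of
a Sylow `p`-subgroup -/
theorem card_cent_dvd [IsSimpleGroup G] (hG : ¬ IsMulCommutative G) {p : ℕ} [hp : Fact p.Prime]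
    (P : Sylow p G) {χ : G → ℂ} (hχ : IsIrrCharacter G χ) (h1 : χ ≠ fun _ => 1) {k : ℕ}
    (hk : χ 1 = (p ^ k : ℕ)) :
    Nat.card (centralizer ((P : Subgroup G) : Set G)) ∣ p ^ k := by
  have := card_dvd_of_const (isCharacter_of_isIrr hχ) (centralizer ((P : Subgroup G) : Set G))
    (a := 0) hk (fun y hy hy1 => by
      have hX := mem_X_of_cent P hy
      rcases irr_eq_zero_or_norm_eq_of_coprime hχ y hk
        (Nat.Coprime.pow_left k ((Nat.Prime.coprime_iff_not_dvd hp.out).2 hX)) with h | h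
      · simpa using h
      · exfalso
        have h2 := charCenter_le_center_of_faithful (isClassFunction_of_isIrr hχ)
          (charKer_eq_bot_of_simple hχ h1) ((mem_charCenter (isCharacter_of_isIrr hχ)).2 h)
        rw [center_eq_bot' hG] at h2
        exact hy1 (mem_bot.1 h2))
  rw [sub_zero] at this
  exact_mod_cast this

end CfsgLib.Cls2
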